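import Cfsg.Agent.H288.E8L.Iface
import Cfsg.Agent.H378.Regular
import Cfsg.Agent.H720.TorusReal

/-!
# S5921, `L₂(81)` in `E₈(3)`: the Props NT, FIX, WTS of `H288.E8L.Iface` (helper857)
-/

set_option autoImplicit false
set_option linter.unusedSectionVars false

namespace Cfsg.Agent.H857.E8L

open CoxeterSystem Cfsg Cfsg.Lie Cfsg.Lie.ChevalleyDatum
open Cfsg.Agent.ChevalleyStructure Cfsg.Agent.ChevalleyStructure.Elts Cfsg.Agent.ChevalleyStructure.CoxeterGeom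
  Cfsg.Agent.ChevalleyStructure.CoxeterGeomTypes
open Cfsg.Agent.Tits.Roots Cfsg.Agent.Tits.Core Cfsg.Agent.Nodes Cfsg.Agent.Nodes.Reps Cfsg.Agent.Nodes.BNOf
  Cfsg.Agent.Nodes.RGDChev
open Cfsg.Agent.GpExc.Field Cfsg.Agent.BpExc.TowChev Cfsg.Agent.H129.TorusChar
open Cfsg.Agent.KFacts.RgdChevCoord
open Cfsg.Agent.H942.E8Tab Cfsg.Agent.H942.E8Alc Cfsg.Agent.H942.CB Cfsg.Agent.H944.Tab Cfsg.Agent.H944.Kac
open Cfsg.Agent.H288.E8L

/-- **NT** -/
theorem nt : NT := by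
  intro s t n hs ht hn
  have hWf : Finite W8 := finite_W e8T cs8
  obtain ⟨m, hm, w, g, hg, hgs, hc⟩ := Cfsg.Agent.H378.Regular.exists_form' e8T cs8 locFin8 3 hs ht.1 hn
  rw [Cfsg.Agent.H378.Regular.MM_eq_bot e8T cs8 (fun a ha => ?_), Subgroup.mem_bot] at hm
  · rw [hm, one_mul] at hc
    subst hc
    exact ⟨w, hg⟩
  · rw [← cX_root e8T cs8 ht.1 ha]
    exact ht.2 a ha

/-- **FIX** -/
theorem fix : FIX := by
  intro g hg
  have h1 : Cfsg.Agent.BpExc.FamUntw.phi chevE8 K8 3 1 g = g := by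
    apply Subtype.ext
    apply Units.ext
    rw [Cfsg.Agent.BpExc.FamUntw.phi_coe]
    have h2 : ∀ i j, mx g i j ^ 3 = mx g i j := by
      intro i j
      have h3 : mx (frb8 g) i j = mx g i j ^ 3 := by
        show (((emb e8T.inList (frobenius K8 3) g : GK) : GL chevE8.Idx K8) : Matrix chevE8.Idx chevE8.Idx K8) i j = _
        rw [coe_emb, coe_glMap, Matrix.map_apply]
        rfl
      rw [← h3, hg]
    ext i j
    rw [Matrix.map_apply, pow_one]
    exact h2 i j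
  obtain ⟨y, hy⟩ := Cfsg.Agent.H378.TorFin.fix_mem e8T (algebraMap (ZMod 3) K8) 3 (n := 1)
    (by simp) invC_E8 h1
  exact ⟨y, hy⟩

/-- the characters of the torus separate the lattice -/
theorem exists_sep {x : Q8} (hx : x ≠ 0) : ∃ t ∈ TT chevE8 K8, cX e8T t x ≠ 1 := by
  obtain ⟨i, hi⟩ := Function.ne_iff.1 hx
  have hi' : x i ≠ 0 := hi
  obtain ⟨N, hN⟩ : ∃ N, N = 3 * (x i).natAbs + 1 := ⟨_, rfl⟩
  have hNk : ((N : ℕ) : K8) = 1 := by
    have h3 : ((3 : ℕ) : K8) = 0 := CharP.cast_eq_zero K8 3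
    rw [hN, Nat.cast_add, Nat.cast_mul, h3, zero_mul, zero_add, Nat.cast_one]
  have hNne : NeZero (N : K8) := ⟨by rw [hNk]; exact one_ne_zero⟩
  obtain ⟨u, hu⟩ := HasEnoughRootsOfUnity.exists_primitiveRoot K8 N
  have hu0 : u ≠ 0 := hu.ne_zero (by omega)
  obtain ⟨t, ht, h3⟩ := exists_cX e8T invC_E8 one_ne_zero
    (Cfsg.Agent.H720.TorusReal.isMC_zpow (k := K8) hu0 (Pi.evalAddMonoidHom (fun _ : Fin 8 => ℤ) i))
    (fun i => ⟨_, pow_one _⟩)
  refine ⟨t, ht, ?_⟩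
  rw [h3]
  intro h4
  have h5 : u ^ (x i) = 1 := h4
  rw [hu.zpow_eq_one_iff_dvd] at h5
  have h6 := Int.natAbs_dvd_natAbs.2 h5
  rw [Int.natAbs_natCast] at h6
  have h7 := Nat.le_of_dvd (Int.natAbs_pos.2 hi') h6
  omega

/-- **WTS** -/
theorem wts : WTS := by
  intro w n hn i j hij
  by_contra hne
  obtain ⟨t', ht', hx⟩ := exists_sep (sub_ne_zero.2 hne)
  apply hx
  -- `t' = n t n⁻¹`
  obtain ⟨t, htd⟩ : ∃ t, t = n⁻¹ * t' * n := ⟨_, rfl⟩
  have ht : t ∈ TT chevE8 K8 := by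
    rw [htd]
    have h1 := (Subgroup.mem_normalizer_iff.1 (inv_mem hn.mem_normalizer) t').1 ht'
    rwa [inv_inv] at h1
  have e : t' = n * t * n⁻¹ := by rw [htd]; group
  have h1 : cX e8T t' (act8 w (wt j)) = cX e8T t (wt j) := by
    rw [e]
    exact cX_rp e8T cs8 locFin8 3 hn ht (wt j)
  have h2 : mx t' * mx n = mx n * mx t := by
    show mx (t' * n) = mx (n * t)
    rw [e, inv_mul_cancel_right]
  have hd : ∀ {t : GK} (_ : t ∈ TT chevE8 K8), mx t = Matrix.diagonal (fun i => cX e8T t (wt i)) := by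
    intro t ht
    have h := TT_diag' e8T ht
    show ((t : GL chevE8.Idx K8) : Matrix chevE8.Idx chevE8.Idx K8) = _
    rw [h]
    congr 1
    funext i
    rcases i with i | s
    · exact (isMC_cX e8T ht).zero.symm
    · rfl
  have h3 := congrFun (congrFun h2 i) j
  rw [hd ht', hd ht, Matrix.diagonal_mul, Matrix.mul_diagonal, ← h1] at h3
  have h4 : cX e8T t' (wt i) = cX e8T t' (act8 w (wt j)) := by
    rw [mul_comm] at h3
    exact mul_left_cancel₀ hij h3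
  have hm := isMC_cX e8T ht'
  rw [sub_eq_add_neg, hm.add, hm.neg, h4, mul_inv_cancel₀ (hm.ne_zero _)]

end Cfsg.Agent.H857.E8L
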